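import Mathlib.RingTheory.Kaehler.Basic
import Mathlib.RingTheory.TensorProduct.Basic
import Mathlib.LinearAlgebra.TensorProduct.Quotient
import Groth.Prelude.Def_PP16

/-!
# The kernel of `C ⊗_A C → C ⊗_B C` and surjectivity; augmentation ideals in a tower
-/

set_option autoImplicit false
universe u
open scoped TensorProduct
open PP16

namespace Groth.Agent.Ega4late.H506.TensorKer

section

variable (A B C : Type u) [CommRing A] [CommRing B] [CommRing C]
    [Algebra A B] [Algebra B C] [Algebra A C] [IsScalarTower A B C]

/-- `C ⊗_A C → C ⊗_B C` is surjective. -/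
theorem tensorMap_surjective : Function.Surjective (PP16.tensorMap A C B C) := by
  intro x
  induction x using TensorProduct.induction_on with
  | zero => exact ⟨0, map_zero _⟩
  | tmul a b => exact ⟨a ⊗ₜ b, by rw [tensorMap_tmul]; rfl⟩
  | add x y hx hy =>
    obtain ⟨a, rfl⟩ := hx
    obtain ⟨b, rfl⟩ := hy
    exact ⟨a + b, map_add _ _ _⟩

/-- The ideal of `C ⊗_A C` generated by the image of the augmentation ideal of `B ⊗_A B`. -/
noncomputable def J : Ideal (C ⊗[A] C) := (KaehlerDifferential.ideal A B).map (tensorMap A B A C)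

theorem mem_J (b : B) :
    (1 : C) ⊗ₜ[A] (algebraMap B C b) - (algebraMap B C b) ⊗ₜ[A] (1 : C) ∈ J A B C := by
  have h := KaehlerDifferential.one_smul_sub_smul_one_mem_ideal A b
  have h2 := Ideal.mem_map_of_mem (tensorMap A B A C) h
  rw [map_sub, tensorMap_tmul, tensorMap_tmul, map_one] at h2
  exact h2

/-- The kernel of `C ⊗_A C → C ⊗_B C` is generated by the image of the augmentation ideal of
`B ⊗_A B`. -/
theorem ker_tensorMap : RingHom.ker (PP16.tensorMap A C B C) = J A B C := by
  apply le_antisymm
  · intro x hx
    have h1 : TensorProduct.mapOfCompatibleSMul B A B C C x = PP16.tensorMap A C B C x := by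
      clear hx
      induction x using TensorProduct.induction_on with
      | zero => simp
      | tmul a b => rw [tensorMap_tmul]; rfl
      | add x y hx hy => rw [map_add, map_add, hx, hy]
    have h2 : x ∈ LinearMap.ker (TensorProduct.mapOfCompatibleSMul B A B C C) := by
      rw [LinearMap.mem_ker, h1]
      exact hx
    rw [TensorProduct.AlgebraTensorModule.ker_mapOfCompatibleSMul] at h2
    clear h1 hx
    induction h2 using Submodule.span_induction with
    | mem x h =>
      obtain ⟨b, m, n, rfl⟩ := h
      have h3 := (J A B C).mul_mem_left (-(m ⊗ₜ[A] n)) (mem_J A B C b)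
      have h4 : -(m ⊗ₜ[A] n) * ((1 : C) ⊗ₜ[A] (algebraMap B C b) - (algebraMap B C b) ⊗ₜ[A] (1 : C))
          = (b • m) ⊗ₜ[A] n - m ⊗ₜ[A] (b • n) := by
        rw [mul_sub, neg_mul, neg_mul, Algebra.TensorProduct.tmul_mul_tmul,
          Algebra.TensorProduct.tmul_mul_tmul, mul_one, mul_one, Algebra.smul_def, Algebra.smul_def,
          mul_comm m, mul_comm n]
        abel
      rw [h4] at h3
      exact h3
    | zero => exact Submodule.zero_mem _
    | add x y _ _ hx hy => exact Submodule.add_mem _ hx hy
    | smul a x hxm hx =>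
      have h5 : a • x = ((algebraMap B C a) ⊗ₜ[A] (1 : C)) * x := by
        clear hx hxm
        induction x using TensorProduct.induction_on with
        | zero => simp
        | tmul c d =>
          rw [Algebra.TensorProduct.tmul_mul_tmul, one_mul, ← Algebra.smul_def]
          rfl
        | add x y hx hy => rw [smul_add, mul_add, hx, hy]
      rw [h5]
      exact (J A B C).mul_mem_left _ hx
  · rw [J, Ideal.map_le_iff_le_comap, ← KaehlerDifferential.span_range_eq_ideal, Ideal.span_le]
    rintro _ ⟨s, rfl⟩
    change PP16.tensorMap A C B C (tensorMap A B A C (1 ⊗ₜ[A] s - s ⊗ₜ[A] 1)) = 0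
    rw [map_sub, tensorMap_tmul, tensorMap_tmul, map_sub, tensorMap_tmul, tensorMap_tmul, map_one,
      map_one]
    change (1 : C) ⊗ₜ[B] (algebraMap B C s) - (algebraMap B C s) ⊗ₜ[B] (1 : C) = 0
    rw [Algebra.algebraMap_eq_smul_one, TensorProduct.smul_tmul, sub_self]

end

end Groth.Agent.Ega4late.H506.TensorKer
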